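import Cfsg.Agent.H450.GenU.Semi

/-!
# Monomial semi-isometries of a Witt basis (helper306, S4180 C8)
-/

set_option autoImplicit false

namespace Cfsg.Agent.H306.DG.PSU

open Cfsg Cfsg.Agent.LieClassical.HermBasic Cfsg.Agent.LieClassical.HermSiegel
  Cfsg.Agent.LieClassical.HermGen Cfsg.Agent.LieClassical.SUBasic
  Cfsg.Agent.ClassicalGeometry.PSUAutCount Cfsg.Agent.ClassicalGeometry.UnitAutBasic Matrix
open Cfsg.Agent.H903.SylSemi Cfsg.Agent.H177.MeetPSU Cfsg.Agent.H137.Herm Cfsg.Agent.H450.GenU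

variable {F : Type} [Field F] {n q : ℕ} {ι : Type} [DecidableEq ι] [Fintype ι] {σ : ι → ι}
  {v : ι → Fin n → F}

theorem SI.sum {ρ : F ≃+* F} {y : Equiv.Perm (Fin n → F)} (h : SI n q ρ y) {κ : Type} (s : Finset κ)
    (f : κ → Fin n → F) : y (∑ i ∈ s, f i) = ∑ i ∈ s, y (f i) := by
  classical
  have h0 : y 0 = 0 := by
    have := h.smul 0 (0 : Fin n → F)
    rwa [zero_smul, map_zero ρ, zero_smul] at this
  induction s using Finset.induction_on with
  | empty => rw [Finset.sum_empty, Finset.sum_empty, h0]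
  | insert a s ha ih => rw [Finset.sum_insert ha, Finset.sum_insert ha, h.add, ih]

/-- Two `ρ`-semilinear isometries which agree on a Witt basis are equal. -/
theorem witt_ext (W : Witt q σ v) (hc : Fintype.card ι = n) {ρ : F ≃+* F} {y y' : Equiv.Perm (Fin n → F)}
    (h : SI n q ρ y) (h' : SI n q ρ y') (he : ∀ i, y (v i) = y' (v i)) : y = y' := by
  ext1 x
  rw [W.expand hc x, SI.sum h, SI.sum h']
  exact Finset.sum_congr rfl fun i _ => by rw [h.smul, h'.smul, he]

/-- Monomial semi-isometries. -/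
theorem exists_smono [Fintype F] (hF : Fintype.card F = q ^ 2) (ρ : F ≃+* F) (W : Witt q σ v)
    (hc : Fintype.card ι = n) (π : Equiv.Perm ι) (hπ : ∀ i, σ (π i) = π (σ i)) (γ : ι → F)
    (hγ : ∀ i, γ i * γ (σ i) ^ q = 1) :
    ∃ y : Equiv.Perm (Fin n → F), SI n q ρ y ∧ ∀ i, y (v i) = γ i • v (π i) := by
  let Y : (Fin n → F) → (Fin n → F) := fun x =>
    ∑ i, ρ (hermForm n F q x (v (σ i))) • γ i • v (π i)
  have hY : ∀ x, Y x = ∑ i, ρ (hermForm n F q x (v (σ i))) • γ i • v (π i) := fun _ => rfl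
  have hadd : ∀ a b, Y (a + b) = Y a + Y b := by
    intro a b
    rw [hY, hY, hY, ← Finset.sum_add_distrib]
    exact Finset.sum_congr rfl fun i _ => by rw [herm_add_left, map_add, add_smul]
  have hsmul : ∀ (c : F) a, Y (c • a) = ρ c • Y a := by
    intro c a
    rw [hY, hY, Finset.smul_sum]
    exact Finset.sum_congr rfl fun i _ => by rw [herm_smul_left, map_mul, mul_smul]
  have hYv : ∀ i, Y (v i) = γ i • v (π i) := by
    intro i
    rw [hY, Finset.sum_eq_single i]
    · rw [W.gram, if_pos rfl, map_one, one_smul]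
    · intro j _ hj
      rw [W.gram, if_neg, map_zero, zero_smul]
      intro h
      apply hj
      rw [← W.inv j, h, W.inv]
    · intro h
      exact absurd (Finset.mem_univ i) h
  have hY0 : Y 0 = 0 := by
    have := hsmul 0 0
    rwa [zero_smul, map_zero, zero_smul] at this
  have hYsum : ∀ (s : Finset ι) (f : ι → Fin n → F), Y (∑ i ∈ s, f i) = ∑ i ∈ s, Y (f i) := by
    intro s f
    induction s using Finset.induction_on with
    | empty => rw [Finset.sum_empty, Finset.sum_empty, hY0]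
    | insert a s ha ih => rw [Finset.sum_insert ha, Finset.sum_insert ha, hadd, ih]
  have hherm : ∀ a b, hermForm n F q (Y a) (Y b) = ρ (hermForm n F q a b) := by
    intro a b
    have key : ∀ i j, hermForm n F q (Y (v i)) (Y (v j)) = ρ (hermForm n F q (v i) (v j)) := by
      intro i j
      rw [hYv, hYv, herm_smul_left, herm_smul_right, W.gram, W.gram, hπ]
      by_cases h : j = σ i
      · rw [if_pos (by rw [h]), if_pos h, h, mul_one, hγ, map_one]
      · rw [if_neg (fun h' => h (π.injective h')), if_neg h, mul_zero, mul_zero, map_zero]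
    conv_rhs => rw [W.expand hc a, W.expand hc b]
    conv_lhs => rw [W.expand hc a, W.expand hc b]
    rw [hYsum, hYsum, herm_sum_left, herm_sum_left, map_sum]
    refine Finset.sum_congr rfl fun i _ => ?_
    rw [herm_sum_right hF, herm_sum_right hF, map_sum]
    refine Finset.sum_congr rfl fun j _ => ?_
    rw [hsmul, hsmul, herm_smul_left, herm_smul_right, herm_smul_left, herm_smul_right, key, map_mul, map_mul,
      map_pow]
  have hinj : Function.Injective Y := by
    intro a b hab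
    have h1 : ∀ w, hermForm n F q a w = hermForm n F q b w := by
      intro w
      apply ρ.injective
      rw [← hherm, ← hherm, hab]
    rw [W.expand hc a, W.expand hc b]
    exact Finset.sum_congr rfl fun i _ => by rw [h1]
  exact ⟨Equiv.ofBijective Y (Finite.injective_iff_bijective.1 hinj), ⟨⟨hadd, hsmul⟩, hherm⟩, hYv⟩

/-- The determinant of a monomial map. -/
theorem witt_dt (W : Witt q σ v) (hc : Fintype.card ι = n) {y : Equiv.Perm (Fin n → F)}
    (hy : SI n q (1 : F ≃+* F) y) (π : Equiv.Perm ι) (γ : ι → F) (h : ∀ i, y (v i) = γ i • v (π i)) :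
    Dt y (((Equiv.Perm.sign π : ℤ) : F) * ∏ i, γ i) := by
  obtain ⟨b, hb⟩ := W.exists_basis hc
  obtain ⟨L, hL⟩ : ∃ L : (Fin n → F) →ₗ[F] (Fin n → F), ∀ v, L v = y v :=
    ⟨{ toFun := y, map_add' := hy.add, map_smul' := hy.smul }, fun _ => rfl⟩
  refine ⟨L, hL, ?_⟩
  rw [← LinearMap.det_toMatrix b]
  have hM : LinearMap.toMatrix b b L =
      (Matrix.diagonal γ).submatrix (π⁻¹ : Equiv.Perm ι) id := by
    ext i j
    rw [LinearMap.toMatrix_apply, hL, hb, h, map_smul, ← hb, b.repr_self,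
      Matrix.submatrix_apply, Matrix.diagonal_apply, Finsupp.smul_apply, Finsupp.single_apply, id]
    by_cases h : π j = i
    · have h1 : (π⁻¹ : Equiv.Perm ι) i = j := by rw [← h]; simp
      rw [if_pos h, if_pos h1, h1, smul_eq_mul, mul_one]
    · have h1 : (π⁻¹ : Equiv.Perm ι) i ≠ j := by
        intro h2
        apply h
        rw [← h2]; simp
      rw [if_neg h, if_neg h1, smul_zero]
  rw [hM, Matrix.det_permute, Matrix.det_diagonal, Equiv.Perm.sign_inv]

/-! ### general facts -/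

theorem SI.semi_inv {y : Equiv.Perm (Fin n → F)} (h : SI n q (1 : F ≃+* F) y) : Semi F y⁻¹ (1 : F ≃+* F) := by
  have h1 := h.inv.1
  rwa [inv_one] at h1

theorem SI.inv1 {y : Equiv.Perm (Fin n → F)} (h : SI n q (1 : F ≃+* F) y) : SI n q (1 : F ≃+* F) y⁻¹ := by
  have := h.inv
  rwa [inv_one] at this

theorem SI.mul1 {y y' : Equiv.Perm (Fin n → F)} (h : SI n q (1 : F ≃+* F) y) (h' : SI n q (1 : F ≃+* F) y') :
    SI n q (1 : F ≃+* F) (y * y') := by
  have := h.mul h'
  rwa [mul_one] at this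

theorem SI.pow1 {y : Equiv.Perm (Fin n → F)} (h : SI n q (1 : F ≃+* F) y) (m : ℕ) :
    SI n q (1 : F ≃+* F) (y ^ m) := by
  induction m with
  | zero => rw [pow_zero]; exact SI.one
  | succ m ih => rw [pow_succ]; exact SI.mul1 ih h

/-- Scalars of norm one. -/
theorem SI.scal {c : F} (hc : c * c ^ q = 1) (hc0 : c ≠ 0) :
    SI n q (1 : F ≃+* F) (scal F (Fin n → F) (Units.mk0 c hc0)) := by
  refine ⟨⟨fun u v => ?_, fun b v => ?_⟩, fun u v => ?_⟩
  · rw [scal_apply, scal_apply, scal_apply, smul_add]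
  · rw [scal_apply, scal_apply, smul_comm]
    rfl
  · rw [scal_apply, scal_apply, herm_smul_left, herm_smul_right, Units.val_mk0, ← mul_assoc, hc, one_mul]
    rfl

theorem dt_scal {c : F} (hc0 : c ≠ 0) :
    Dt (Cfsg.Agent.H903.SylSemi.scal F (Fin n → F) (Units.mk0 c hc0)) (c ^ n) := by
  refine ⟨c • LinearMap.id, fun v => rfl, ?_⟩
  rw [LinearMap.det_smul, LinearMap.det_id, mul_one]
  simp

variable [Fintype F]

theorem scal_mem (M : Subgroup (MulAut (PSU n F q))) {c : F} (hc : c * c ^ q = 1) (hc0 : c ≠ 0) :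
    scal F (Fin n → F) (Units.mk0 c hc0) ∈ LL M :=
  ⟨⟨_, SI.scal hc hc0⟩, 1, M.one_mem, ind_scal _⟩

omit [Fintype F] in
/-- Elements with the same determinant. -/
theorem exists_rho_mul {y y' : Equiv.Perm (Fin n → F)} {ρ : F ≃+* F} (hy : SI n q ρ y) (hy' : SI n q ρ y')
    (h : Dt (y' * y⁻¹) 1) : ∃ s : SU n F q, y' = rho n F q s * y := by
  have h1 : SI n q (1 : F ≃+* F) (y' * y⁻¹) := by
    have := hy'.mul hy.inv
    rwa [mul_inv_cancel] at this
  obtain ⟨s, hs⟩ := exists_rho h1 h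
  exact ⟨s, by rw [hs, inv_mul_cancel_right]⟩

omit [Fintype F] in
theorem exists_rho_mul1 {y y' : Equiv.Perm (Fin n → F)} (hy : SI n q (1 : F ≃+* F) y)
    (hy' : SI n q (1 : F ≃+* F) y') {δ : F} (h : Dt y δ) (h' : Dt y' δ) :
    ∃ s : SU n F q, y' = rho n F q s * y := by
  refine exists_rho_mul hy hy' ?_
  have := h'.mul (h.inv (SI.semi_inv hy))
  rwa [mul_inv_cancel₀ (h'.ne_zero (SI.semi_inv hy'))] at this

end Cfsg.Agent.H306.DG.PSU
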