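import Cfsg.Agent.H306.DG.GenFrame

/-!
# Root subgroups and semilinear Weyl elements (helper306, S4180 C8)
-/

set_option autoImplicit false

namespace Cfsg.Agent.H306.DG.PSU

open Cfsg Cfsg.Agent.LieClassical.HermBasic Cfsg.Agent.LieClassical.HermSiegel
  Cfsg.Agent.LieClassical.HermGen Cfsg.Agent.LieClassical.SUBasic
  Cfsg.Agent.ClassicalGeometry.PSUAutCount Cfsg.Agent.ClassicalGeometry.UnitAutBasic Matrix
open Cfsg.Agent.H903.SylSemi Cfsg.Agent.H177.MeetPSU Cfsg.Agent.H137.Herm Cfsg.Agent.H450.GenU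

variable {F : Type} [Field F] [Fintype F] {n q : ℕ} {hF : Fintype.card F = q ^ 2}
  {M : Subgroup (MulAut (PSU n F q))} {ρ : F ≃+* F} {y w S : Equiv.Perm (Fin n → F)}

omit [Fintype F] in
theorem inv_apply_self' (y : Equiv.Perm (Fin n → F)) (x : Fin n → F) : y⁻¹ (y x) = x := by
  rw [← Equiv.Perm.mul_apply, inv_mul_cancel, Equiv.Perm.one_apply]

omit [Fintype F] in
theorem apply_inv_self' (y : Equiv.Perm (Fin n → F)) (x : Fin n → F) : y (y⁻¹ x) = x := by
  rw [← Equiv.Perm.mul_apply, mul_inv_cancel, Equiv.Perm.one_apply]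

/-- Conjugates of diagonal elements. -/
theorem conj_eig_semi (hw : SI n q ρ w) {x x' : Fin n → F} {g s : F} (hg : g ≠ 0)
    (hwx : w x = g • x') (hS1 : SI n q (1 : F ≃+* F) S) (hS : S x = s • x) :
    (w * S * w⁻¹) x' = ρ s • x' := by
  have h1 : (w * S * w⁻¹) (g • x') = ρ s • (g • x') := by
    rw [← hwx, Equiv.Perm.mul_apply, inv_apply_self', Equiv.Perm.mul_apply, hS, hw.smul]
  have hI : SI n q (1 : F ≃+* F) (w * S * w⁻¹) := by
    have h := (hw.mul hS1).mul hw.inv
    rwa [mul_one, mul_inv_cancel] at h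
  rw [hI.smul, RingAut.one_apply, smul_comm (ρ s) g x'] at h1
  have h2 := congrArg (fun t => g⁻¹ • t) h1
  simpa [smul_smul, ← mul_assoc, inv_mul_cancel₀ hg] using h2

theorem full_semi {u : Fin n → F} (hyM : y ∈ LL M) (hy : SI n q ρ y) (h : Full hF (KK M) u) :
    Full hF (KK M) (y u) := by
  intro x ν hx
  have h2 : IsSiegel q u (y⁻¹ x) (ρ⁻¹ ν) := by
    have := isSiegel_map hy.inv hx
    rwa [inv_apply_self'] at this
  refine (SM_semi hyM hy (h _ _ h2)).congr rfl ?_ ?_
  · rw [apply_inv_self']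
  · rw [← RingAut.mul_apply, mul_inv_cancel, RingAut.one_apply]

section Roots

variable {m : ℕ} {v : ZMod (2 * m) → Fin n → F} {γ : ZMod (2 * m) → F}

theorem R_shift (hyM : y ∈ LL M) (hy : SI n q ρ y) (hγ : ∀ j, γ j ≠ 0)
    (hyv : ∀ j, y (v j) = γ j • v (j + 1)) {i j : ZMod (2 * m)} (h : R hF (KK M) v i j) :
    R hF (KK M) v (i + 1) (j + 1) := by
  intro b
  have hi : γ i ^ q ≠ 0 := pow_ne_zero _ (hγ i)
  have h1 := (SM_semi hyM hy (h (ρ.symm (b / (γ i ^ q * γ j))))).congr (hyv i) (by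
    rw [hy.smul, hyv, RingEquiv.apply_symm_apply]) rfl
  refine (h1.smul (hγ i)).congr rfl ?_ (by rw [map_zero, mul_zero])
  rw [smul_smul, smul_smul]
  congr 1
  have := hγ j
  field_simp

variable [NeZero m]

theorem shift_all {H : Subgroup (SU n F q)}
    (hsh : ∀ i j, R hF H v i j → R hF H v (i + 1) (j + 1))
    {i j : ZMod (2 * m)} (h : R hF H v i j) (k : ZMod (2 * m)) : R hF H v (i + k) (j + k) := by
  have hm : 0 < m := Nat.pos_of_ne_zero (NeZero.ne m)
  have : NeZero (2 * m) := ⟨by omega⟩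
  have key : ∀ k : ℕ, R hF H v (i + (k : ZMod (2 * m))) (j + (k : ZMod (2 * m))) := by
    intro k
    induction k with
    | zero => simpa using h
    | succ k ih =>
      have := hsh _ _ ih
      rwa [add_assoc, add_assoc, ← Nat.cast_succ] at this
  rw [← ZMod.natCast_zmod_val k]
  exact key _

theorem R_all {H : Subgroup (SU n F q)} (hm : 2 ≤ m) (hv : Std q v)
    (hsh : ∀ i j, R hF H v i j → R hF H v (i + 1) (j + 1))
    (h0 : R hF H v 0 ((m : ZMod (2 * m)) + 1)) (i j : ZMod (2 * m)) (hij : j ≠ i)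
    (hij' : j ≠ i + (m : ZMod (2 * m))) : R hF H v i j := by
  have : NeZero (2 * m) := ⟨by omega⟩
  have A : ∀ k : ℕ, 1 ≤ k → k < m → R hF H v 0 ((m : ZMod (2 * m)) + (k : ZMod (2 * m))) := by
    intro k hk
    induction k, hk using Nat.le_induction with
    | base => intro _; rw [Nat.cast_one]; exact h0
    | succ k hk ih =>
      intro hkm
      have ih' := ih (by omega)
      have h1 := (shift_all hsh h0 (k : ZMod (2 * m))).symm hv
      rw [zero_add] at h1
      have e1 : (m : ZMod (2 * m)) + 1 + (k : ZMod (2 * m)) =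
          (m : ZMod (2 * m)) + ((k + 1 : ℕ) : ZMod (2 * m)) := by
        rw [Nat.cast_succ]; ring
      rw [e1] at h1
      rw [add_comm (m : ZMod (2 * m)) (k : ZMod (2 * m))] at ih'
      refine R.comp hv h1 ih' ?_ ?_ ?_
      · rw [← Nat.cast_add, Ne, cast_inj (by omega) (by omega)]
        omega
      · rw [← Nat.cast_add, ← Nat.cast_zero, Ne, cast_inj (by omega) (by omega)]
        omega
      · rw [add_comm (m : ZMod (2 * m)), add_half_half, ← Nat.cast_zero, Ne,
          cast_inj (by omega) (by omega)]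
        omega
  have B : ∀ j : ZMod (2 * m), j ≠ 0 → j ≠ (m : ZMod (2 * m)) → R hF H v 0 j := by
    intro j hj0 hjm
    have hlt := j.val_lt
    have hj := ZMod.natCast_zmod_val j
    have h1 : j.val ≠ 0 := by
      intro h; rw [h, Nat.cast_zero] at hj; exact hj0 hj.symm
    have h2 : j.val ≠ m := by
      intro h; rw [h] at hj; exact hjm hj.symm
    by_cases h3 : m < j.val
    · have := A (j.val - m) (by omega) (by omega)
      rwa [← Nat.cast_add, show m + (j.val - m) = j.val by omega, hj] at this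
    · have h4 := A (m - j.val) (by omega) (by omega)
      have e : (m : ZMod (2 * m)) + ((m - j.val : ℕ) : ZMod (2 * m)) = -j := by
        rw [Nat.cast_sub (by omega), hj]
        linear_combination two_half (m := m)
      rw [e] at h4
      have h5 := shift_all hsh (h4.symm hv) j
      rwa [neg_add_cancel, zero_add] at h5
  have h1 := shift_all hsh (B (j - i) (sub_ne_zero.2 hij) (by
    intro h
    apply hij'
    rw [← h]; ring)) i
  rwa [zero_add, sub_add_cancel] at h1

omit [NeZero m] in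
theorem full_shift (hyM : y ∈ LL M) (hy : SI n q ρ y) (hγ : ∀ j, γ j ≠ 0)
    (hyv : ∀ j, y (v j) = γ j • v (j + 1)) (h : Full hF (KK M) (v 0)) (k : ℕ) :
    Full hF (KK M) (v (k : ZMod (2 * m))) := by
  induction k with
  | zero => rw [Nat.cast_zero]; exact h
  | succ k ih =>
    have h1 := full_semi hyM hy ih
    rw [hyv] at h1
    have h2 := h1.smul (inv_ne_zero (hγ (k : ZMod (2 * m))))
    rwa [smul_smul, inv_mul_cancel₀ (hγ _), one_smul, ← Nat.cast_succ] at h2

/-- The end of all cases. -/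
theorem top_of_WS (hn : 3 ≤ n) (hv : Std q v) (hyM : y ∈ LL M) (hy : SI n q ρ y) (hγ : ∀ j, γ j ≠ 0)
    (hyv : ∀ j, y (v j) = γ j • v (j + 1))
    (h : ∀ x, hermForm n F q x (v 0) = 0 → x ∈ WS hF (KK M) (v 0) (hv.iso 0)) : KK M = ⊤ := by
  have h0 : v 0 ≠ 0 := by
    intro h0
    have := hv.pair 0
    rw [h0, herm_zero_left] at this
    exact zero_ne_one this
  have hfull := full_of_WS hn (hv.iso 0) h0 h
  refine eq_top_of_full hn (hv.iso 0) (hv.iso (m : ZMod (2 * m))) ?_ hfull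
    (full_shift hyM hy hγ hyv hfull m)
  have := hv.pair 0
  rw [zero_add] at this
  rw [this]
  exact one_ne_zero

end Roots

/-- **The torus trick** with a semilinear monomial element, isotropic root. -/
theorem torus_semi0 {u r : Fin n → F} (hr : hermForm n F q r r = 0)
    (hSI : SI n q (1 : F ≃+* F) S) (hwI : SI n q ρ w) (hS : S ∈ LL M)
    (k : IsSiegel q u r 0) (hy : rho n F q (siegel hF u r 0 k) * w ∈ LL M)
    {s s' c c' : F} (hSu : S u = s • u) (hSr : S r = s' • r)
    (hwu : (w * S * w⁻¹) u = c • u) (hwr : (w * S * w⁻¹) r = c' • r)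
    (hcomm : S * (w * S * w⁻¹) = (w * S * w⁻¹) * S) :
    SM hF (KK M) u (((s ^ q * s' - 1) * (1 - c ^ q * c')) • r) 0 := by
  set t := rho n F q (siegel hF u r 0 k) with ht
  have hhI : SI n q (1 : F ≃+* F) (w * S * w⁻¹) := by
    have h := (hwI.mul hSI).mul hwI.inv
    rwa [mul_one, mul_inv_cancel] at h
  set h := w * S * w⁻¹ with hh
  have hb : S * ((t * w) * S * (t * w)⁻¹) * S⁻¹ * ((t * w) * S * (t * w)⁻¹)⁻¹ ∈ LL M := by
    have h1 := mul_mem (mul_mem hy hS) (inv_mem hy)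
    exact mul_mem (mul_mem (mul_mem hS h1) (inv_mem hS)) (inv_mem h1)
  have hsplit : S * ((t * w) * S * (t * w)⁻¹) * S⁻¹ * ((t * w) * S * (t * w)⁻¹)⁻¹ =
      (S * t * S⁻¹) * (h * (S * t * S⁻¹) * h⁻¹)⁻¹ * (h * t * h⁻¹) * t⁻¹ := by
    have e1 : (t * w) * S * (t * w)⁻¹ = t * h * t⁻¹ := by rw [hh]; group
    rw [e1]
    have e2 : S * (t * h * t⁻¹) * S⁻¹ = (S * t * S⁻¹) * h * (S * t⁻¹ * S⁻¹) := by
      have : S * h * S⁻¹ = h := by rw [hcomm, mul_inv_cancel_right]
      calc S * (t * h * t⁻¹) * S⁻¹ = (S * t * S⁻¹) * (S * h * S⁻¹) * (S * t⁻¹ * S⁻¹) := by group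
        _ = _ := by rw [this]
    rw [e2]
    group
  rw [hsplit] at hb
  have hq0 : q ≠ 0 := by
    rintro rfl
    have h0 : 1 < Fintype.card F := Fintype.one_lt_card
    rw [hF] at h0
    norm_num at h0
  have key : ∀ {x x' : Equiv.Perm (Fin n → F)} {a a' : F}, SEP hF x u (a • r) 0 → SEP hF x' u (a' • r) 0 →
      SEP hF (x * x') u ((a + a') • r) 0 := by
    intro x x' a a' h1 h2
    refine (h1.mul h2).congr rfl (add_smul a a' r).symm ?_
    rw [herm_smul_left, herm_smul_right, hr]; ring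
  have keyi : ∀ {x : Equiv.Perm (Fin n → F)} {a : F}, SEP hF x u (a • r) 0 → SEP hF x⁻¹ u ((-a) • r) 0 := by
    intro x a h1
    exact h1.inv.congr rfl (neg_smul a r).symm (zero_pow hq0)
  have hSt : SEP hF t u ((1 : F) • r) 0 := SEP.congr ⟨k, rfl⟩ rfl (one_smul F r).symm rfl
  have keyc : ∀ {x y : Equiv.Perm (Fin n → F)} {a g g' : F}, SI n q (1 : F ≃+* F) y → y u = g • u →
      y r = g' • r → SEP hF x u (a • r) 0 → SEP hF (y * x * y⁻¹) u ((g ^ q * g' * a) • r) 0 := by
    intro x y a g g' hyI hyu hyr h1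
    refine (h1.conj_eig hyI (s := g) (t := g') hyu ?_).congr rfl ?_ ?_
    · rw [hyI.smul, hyr, smul_smul, smul_smul, RingAut.one_apply, mul_comm]
    · rw [smul_smul]
    · rw [RingAut.one_apply, mul_zero]
  have a1 := keyc hSI hSu hSr hSt
  have a2 := keyc hhI hwu hwr hSt
  have a3 := keyc hhI hwu hwr a1
  obtain ⟨k', hk'⟩ := key (key (key a1 (keyi a3)) a2) (keyi hSt)
  rw [hk'] at hb
  refine SM.congr ⟨k', hb⟩ rfl ?_ rfl
  congr 1
  ring

end Cfsg.Agent.H306.DG.PSU
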